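import Cfsg.Agent.H404.K6.CritE
import Cfsg.Agent.LThreeFi22.Five
import Cfsg.Agent.LThreeFi23.ChkD
import Cfsg.Agent.LThreeFi24.FiveConj

/-!
# S4876, `p = 5`: the Fischer groups (helper629)

`x`, `y` commuting elements of order 5 (products along two chains `A₄` of transpositions), `h` centralizes `x` and
`h y h⁻¹ = y²`: criterion E (`KRow.of_inertial`).

* `row_fi22`, `row_fi23`, `row_fi24` : `KRow 5`.
-/

set_option autoImplicit false

namespace Cfsg.Agent.H629.K6

open Cfsg Cfsg.Agent.H61.K6 Cfsg.Agent.H404.K6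

universe u v

theorem no_pow {G : Type*} [Group G] {x y h : G} {n : ℕ} (hhx : Commute h x) (hy : h * y * h⁻¹ = y ^ (n + 1))
    (hy1 : y ^ n ≠ 1) : y ∉ Subgroup.zpowers x := by
  rintro ⟨k, hk⟩
  have h1 : Commute h y := by
    have h2 : Commute h (x ^ k) := hhx.zpow_right k
    rwa [show x ^ k = y from hk] at h2
  rw [h1.eq, mul_inv_cancel_right, pow_succ] at hy
  exact hy1 (mul_eq_right.1 hy.symm)

theorem inert_mk {G : Type*} [Group G] {x y h : G} (hc : ¬ 5 ^ 3 ∣ Nat.card G) (hx5 : x ^ 5 = 1) (hx1 : x ≠ 1)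
    (hy5 : y ^ 5 = 1) (hy1 : y ≠ 1) (hxy : Commute x y) (hhx : Commute h x) (hy : h * y * h⁻¹ = y ^ 2) :
    Inert 5 x y h 2 4 := by
  have : Fact (Nat.Prime 5) := ⟨by norm_num⟩
  refine ⟨hc, orderOf_eq_prime hx5 hx1, orderOf_eq_prime hy5 hy1, hxy, ?_, hhx, hy, ?_⟩
  · exact no_pow (n := 1) hhx hy (by rwa [pow_one])
  · intro i h0 h4
    interval_cases i <;> decide

/-- criterion E for `p = 5` -/
theorem row_mk {G : Type v} [Group G] {x y h : G} (hc : ¬ 5 ^ 3 ∣ Nat.card G) (hx5 : x ^ 5 = 1) (hx1 : x ≠ 1)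
    (hy5 : y ^ 5 = 1) (hy1 : y ≠ 1) (hxy : Commute x y) (hhx : Commute h x) (hy : h * y * h⁻¹ = y ^ 2) :
    KRow.{u, v} 5 G :=
  KRow.of_inertial (inert_mk hc hx5 hx1 hy5 hy1 hxy hhx hy) (Or.inl ⟨rfl, le_refl _⟩)

/-! ### `Fi22` -/

namespace F22

open Cfsg.Agent.Fischer Cfsg.Agent.Fischer.Abstract Cfsg.Agent.Fischer.Group22 Cfsg.Agent.LThreeFi22.Five

open Data22.Gen in
/-- the word of `h` -/
def wh : List Data22.Gen := [i, f, l]

theorem chk1 : Cert.relCheck Data22.nx (nat_lit 54) (nat_lit 65) (wh ++ w1 ++ wh.reverse ++ w1.reverse ++ w1.reverse)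
    = true := by decide +kernel
theorem chk2 : Cert.relCheck Data22.nx (nat_lit 54) (nat_lit 65) (wh ++ w0 ++ wh.reverse ++ w0.reverse) = true := by
  decide +kernel
theorem chk3 : Cert.relCheck Data22.nx (nat_lit 54) (nat_lit 65) (wh ++ wh.reverse) = true := by decide +kernel
theorem chk4 : Cert.relCheck Data22.nx (nat_lit 54) (nat_lit 65) (w0 ++ w0.reverse) = true := by decide +kernel
theorem chk5 : Cert.relCheck Data22.nx (nat_lit 54) (nat_lit 65) (w1 ++ w1.reverse) = true := by decide +kernel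

theorem row : KRow.{u, 0} 5 Group22.G := by
  have r1 : (el wh)⁻¹ = el wh.reverse := inv_eq_of_mul_eq_one_right (by rw [← el_append]; exact one_of_chk chk3)
  have r2 : (el w0)⁻¹ = el w0.reverse := inv_eq_of_mul_eq_one_right (by rw [← el_append]; exact one_of_chk chk4)
  have r3 : (el w1)⁻¹ = el w1.reverse := inv_eq_of_mul_eq_one_right (by rw [← el_append]; exact one_of_chk chk5)
  refine row_mk (x := el w0) (y := el w1) (h := el wh) (by rw [card_G]; norm_num) u0_pow
    (fun h => nfix0 (by rw [h, one_mul, mul_one])) u1_pow (fun h => nfix1 (by rw [h, one_mul, mul_one])) u_comm ?_ ?_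
  · have h1 := one_of_chk chk2
    rw [el_append, el_append, el_append, ← r1, ← r2] at h1
    exact mul_inv_eq_iff_eq_mul.1 (mul_inv_eq_one.1 h1)
  · have h1 := one_of_chk chk1
    rw [el_append, el_append, el_append, el_append, ← r1, ← r3, mul_inv_eq_iff_eq_mul, one_mul,
      mul_inv_eq_iff_eq_mul] at h1
    rw [h1, pow_two]

end F22

/-- **Row `Fi22`, `p = 5`.** -/
theorem row_fi22 {S : Type v} [Group S] (h : Spor.IsoFi22 S) : KRow.{u, v} 5 S := by
  obtain ⟨e⟩ := h
  exact F22.row.congr (Cfsg.Agent.R01.Fi22Facts.E.trans e.symm)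

/-! ### `Fi23` -/

namespace F23

open Cfsg.Agent.LThreeFi23 Cfsg.Agent.Lib.PermNet Cfsg.Agent.Lib.PermNetOrbit

def wy : List Lt := [.a, .b, .c, .d]
def wh : List Lt := [.a, .c, .b]

theorem chk1 : checkEq 15 (ntw (wh ++ wy)) (ntw (wy ++ wy ++ wh)) = true := by decide +kernel
theorem chk2 : checkEq 15 (ntw (wh ++ y5)) (ntw (y5 ++ wh)) = true := by decide +kernel
theorem chk3 : checkEq 15 (ntw (y5 ++ wy)) (ntw (wy ++ y5)) = true := by decide +kernel
theorem chk4 : checkEq 15 (ntw (wrep wy 5)) [] = true := by decide +kernel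
theorem nx : Nat.beq (ptw y5 0) 0 = false := by decide +kernel
theorem ny : Nat.beq (ptw wy 11589) 11589 = false := by decide +kernel

theorem ne_one {l : List Lt} {p : ℕ} (h : Nat.beq (ptw l p) p = false) : elw l ≠ 1 := by
  intro h1
  rw [ptw_eq, h1, map_one, Equiv.Perm.one_apply, Nat.beq_refl] at h
  exact absurd h (by decide)

theorem row : KRow.{u, 0} 5 Spor.Fi23 := by
  have e1 := elw_eq_of_checkEq chk1
  have e2 := elw_eq_of_checkEq chk2
  have e3 := elw_eq_of_checkEq chk3
  rw [elw_append, elw_append, elw_append] at e1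
  rw [elw_append, elw_append] at e2 e3
  refine row_mk (x := elw y5) (y := elw wy) (h := elw wh) (by rw [card_G]; norm_num) pow5 (ne_one nx)
    (pow_eq_one_of (checkPlanes_spec chk4)) (ne_one ny) e3 e2 ?_
  rw [mul_inv_eq_iff_eq_mul, pow_two]
  exact e1

end F23

/-- **Row `Fi23`, `p = 5`.** -/
theorem row_fi23 {S : Type v} [Group S] (h : Spor.IsoFi23 S) : KRow.{u, v} 5 S := by
  obtain ⟨e⟩ := h
  exact F23.row.congr e.symm

/-! ### `Fi24'` -/

namespace F24

open Cfsg.Agent.LThreeFi24.SNine Cfsg.Agent.LThreeFi24.FiveConj Cfsg.Agent.R08.FiTwentyFour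
open Cfsg.Agent.Fischer.Fi24Spider (word_append word_cons word_nil)
open Cfsg.Agent.Fischer.Fi24Rep
open Cfsg.Spor (Fi24)
open Cfsg.Spor.Fi24 (Gen)

theorem chk1 : eqB ([.h] ++ w1) (w1 ++ [.h]) = true := by decide +kernel
theorem chk2 : eqB ([.h] ++ w0) (w0 ++ [.h]) = true := by decide +kernel

theorem word_even : ∀ (l : List Gen), Even l.length → word l ∈ commutator Fi24
  | [], _ => by rw [word_nil]; exact one_mem _
  | [x], h => absurd h (by rw [List.length_singleton]; decide)
  | x :: y :: l, h => by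
    rw [word_cons, word_cons, ← mul_assoc]
    refine mul_mem (even (gen_mem_L x) (gen_mem_L y)) (word_even l ?_)
    rw [List.length_cons, List.length_cons] at h
    rcases h with ⟨k, hk⟩
    exact ⟨k - 1, by omega⟩

theorem row : KRow.{u, 0} 5 Spor.Fi24' := by
  have hx : y0 ∈ commutator Fi24 := word_even w0 (by decide)
  have hy : y1 ∈ commutator Fi24 := word_even w1 (by decide)
  have hh : word ([.h] ++ u2) ∈ commutator Fi24 := word_even _ (by decide)
  have d1 : Commute (word [.h]) y1 := by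
    have h1 := eq_of_eqB chk1
    rw [word_append, word_append] at h1
    exact h1
  have d2 : Commute (word [.h]) y0 := by
    have h1 := eq_of_eqB chk2
    rw [word_append, word_append] at h1
    exact h1
  have o1 : y1 ≠ 1 := fun h => y1_not_mem (by rw [h]; exact one_mem _)
  refine row_mk (x := (⟨y0, hx⟩ : Spor.Fi24')) (y := ⟨y1, hy⟩) (h := ⟨_, hh⟩)
    (by rw [card_commutator]; norm_num) (Subtype.ext e5) (fun h => y0_ne (congrArg Subtype.val h))
    (Subtype.ext e6) (fun h => o1 (congrArg Subtype.val h)) (Subtype.ext c3) ?_ ?_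
  · apply Subtype.ext
    change word ([.h] ++ u2) * y0 = y0 * word ([.h] ++ u2)
    rw [word_append]
    exact (d2.mul_left c2).eq
  · apply Subtype.ext
    change word ([.h] ++ u2) * y1 * (word ([.h] ++ u2))⁻¹ = y1 ^ 2
    rw [word_append]
    calc word [.h] * word u2 * y1 * (word [.h] * word u2)⁻¹ = word [.h] * (t2 * y1 * t2⁻¹) * (word [.h])⁻¹ := by
          rw [t2]; group
      _ = y1 ^ 2 := by rw [e2, (d1.pow_right 2).eq, mul_inv_cancel_right]

end F24

/-- **Row `Fi24'`, `p = 5`.** -/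
theorem row_fi24 {S : Type v} [Group S] (h : Spor.IsoFi24' S) : KRow.{u, v} 5 S := by
  obtain ⟨e⟩ := h
  exact F24.row.congr e.symm

end Cfsg.Agent.H629.K6
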